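import Cfsg.Agent.H653.Sieve.Check

/-!
# S2465, `G₂(9)`: the numerical part (helper227)

The signed degrees of the five nontrivial non-exceptional characters of the principal 73-block are
`-13650, 19200, 19200, 26208, 531441`.
-/

set_option autoImplicit false

namespace Cfsg.Agent.H227.Pw

/-- `k = 0, ..., n` copies of `(a, wa)` -/
def lp (g : ℕ → ℕ → ℕ → Bool) (a wa : ℕ) : ℕ → ℕ → ℕ → Bool
  | 0, s, t => g 0 s t
  | n + 1, s, t => g (n + 1) s t && lp g a wa n (Nat.add s a) (Nat.add t wa)

/-- all multisets of size `n` with entries in the list -/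
def ck (f : ℕ → ℕ → Bool) : List (ℕ × ℕ) → ℕ → ℕ → ℕ → Bool
  | [], 0, s, t => f s t
  | [], _ + 1, _, _ => true
  | p :: L, n, s, t => lp (ck f L) p.1 p.2 n s t

theorem lp_spec {g : ℕ → ℕ → ℕ → Bool} {a wa : ℕ} : ∀ {n : ℕ} {s : ℕ} {t : ℕ}, lp g a wa n s t = true →
    ∀ k ≤ n, g (n - k) (s + k * a) (t + k * wa) = true
  | 0, s, t, h, k, hk => by
    obtain rfl : k = 0 := by omega
    simpa [lp] using h
  | n + 1, s, t, h, k, hk => by
    rw [lp, Bool.and_eq_true] at h
    rcases Nat.eq_zero_or_pos k with rfl | hk0
    · simpa using h.1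
    · obtain ⟨j, rfl⟩ : ∃ j, k = j + 1 := ⟨k - 1, by omega⟩
      have h1 := lp_spec h.2 j (by omega)
      have e1 : Nat.add s a + j * a = s + (j + 1) * a := by
        change s + a + j * a = _
        ring
      have e2 : Nat.add t wa + j * wa = t + (j + 1) * wa := by
        change t + wa + j * wa = _
        ring
      rw [e1, e2] at h1
      rwa [show n + 1 - (j + 1) = n - j by omega]

theorem ck_spec {f : ℕ → ℕ → Bool} : ∀ {L : List (ℕ × ℕ)} {n : ℕ} {s : ℕ} {t : ℕ}, ck f L n s t = true →
    ∀ M : Multiset (ℕ × ℕ), M.card = n → (∀ x ∈ M, x ∈ L) → f (s + (M.map Prod.fst).sum) (t + (M.map Prod.snd).sum) = true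
  | [], 0, s, t, h, M, hM, _ => by
    obtain rfl := Multiset.card_eq_zero.1 hM
    simpa [ck] using h
  | [], n + 1, s, t, h, M, hM, hx => by
    exfalso
    obtain ⟨x, hx'⟩ := Multiset.card_pos_iff_exists_mem.1 (by rw [hM]; omega : 0 < M.card)
    exact absurd (hx x hx') (by simp)
  | a :: L, n, s, t, h, M, hM, hx => by
    rw [ck] at h
    have e : Multiset.replicate (M.count a) a + M.filter (fun x => ¬ x = a) = M := by
      rw [← Multiset.filter_eq' M a]
      exact Multiset.filter_add_not _ M
    have hk : M.count a ≤ n := by rw [← hM]; exact Multiset.count_le_card a M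
    have h1 := lp_spec h (M.count a) hk
    have hc : (M.filter (fun x => ¬ x = a)).card = n - M.count a := by
      have h2 := congrArg Multiset.card e
      rw [Multiset.card_add, Multiset.card_replicate, hM] at h2
      omega
    have h3 := ck_spec h1 _ hc (fun x hx' => by
      obtain ⟨h4, h5⟩ := Multiset.mem_filter.1 hx'
      exact (List.mem_cons.1 (hx x h4)).resolve_left h5)
    have e1 : s + M.count a * a.1 + ((M.filter (fun x => ¬ x = a)).map Prod.fst).sum = s + (M.map Prod.fst).sum := by
      conv_rhs => rw [← e]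
      rw [Multiset.map_add, Multiset.sum_add, Multiset.map_replicate, Multiset.sum_replicate, smul_eq_mul, add_assoc]
    have e2 : t + M.count a * a.2 + ((M.filter (fun x => ¬ x = a)).map Prod.snd).sum = t + (M.map Prod.snd).sum := by
      conv_rhs => rw [← e]
      rw [Multiset.map_add, Multiset.sum_add, Multiset.map_replicate, Multiset.sum_replicate, smul_eq_mul, add_assoc]
    rwa [e1, e2] at h3

/-- the possible signed degrees of the non-exceptional characters -/
def LN : List ℤ := [-13650, 17010, 19200, 26208, -42120, 52488, -120960, 194400, 265356, -426465,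
  531441, 982800, -1224720, -1886976, 1968300, 3032640, -3779136]

/-- the possible signed degrees of the exceptional characters -/
def LX : List ℤ := [-2558790, -725760, -252720, -164025, -81900, -24960, -22113, -16200, 10080, 31104,
  102060, 157248, 314928, 582400, 1166400, 1592136]

/-- `10²⁰ / a²`, rounded up -/
def wt (a : ℤ) : ℕ := 10 ^ 20 / (a.natAbs * a.natAbs) + 1

/-- the entries of `LN` plus `4000000`, with their weights -/
def LP : List (ℕ × ℕ) := [(3986350, 536703833408), (4017010, 345614036907), (4019200, 271267361112), (4026208, 145590232587),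
  (3957880, 56366786345), (4052488, 36297770509), (3879040, 6834652586), (4194400, 2646107471),
  (4265356, 1420176023), (3573535, 549836051), (4531441, 354070617), (4982800, 103530833),
  (2775280, 66669375), (2113024, 28084536), (5968300, 25811748), (7032640, 10873223),
  (220864, 7001885)]

/-- the entries of `LX` plus `20000000` -/
def LY : List ℕ := [17441210, 19274240, 19747280, 19835975, 19918100, 19975040, 19977887, 19983800,
  20010080, 20031104, 20102060, 20157248, 20314928, 20582400, 21166400, 21592136]

/-- the residues of `LY` modulo `1021` -/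
def BY : ℕ := 2764492206540569688046936626574804671248424414200276707260811361212905053715867941575293262587780267869527286568052691443836530772590415205818811785744704771775948384634658230976569443603480530658642191740168851172728166472488958904709172447324800512466157425712019350414340506841167915231678211358195712

def hit (s : ℕ) : Bool := Nat.beq (Nat.land (Nat.shiftRight BY (Nat.mod s 1021)) 1) 0

/-- the test -/
def tst (s : ℕ) (t : ℕ) : Bool :=
  bif hit s then true else (LY.all fun b => !(Nat.beq s b)) || (Nat.beq s 20582400 && Nat.ble t 1225200000000)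

theorem check : ck tst LP 5 1 0 = true := by decide +kernel

theorem mem_LP : ∀ a ∈ LN, ((a + 4000000).toNat, wt a) ∈ LP := by decide +kernel

theorem nonneg_LN : ∀ a ∈ LN, 0 ≤ a + 4000000 := by decide +kernel

theorem mem_LY : ∀ b ∈ LX, (b + 20000000).toNat ∈ LY ∧ 0 ≤ b + 20000000 := by decide +kernel

theorem hit_LY : ∀ b ∈ LY, hit b = false := by decide +kernel

theorem check_spec (M : Multiset ℤ) (hM : M.card = 5) (h : ∀ x ∈ M, x ∈ LN) (hx : 1 + M.sum ∈ LX) :
    1 + M.sum = 582400 ∧ (M.map wt).sum ≤ 1225200000000 := by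
  have h1 := ck_spec check (M.map fun a => ((a + 4000000).toNat, wt a)) (by rw [Multiset.card_map, hM]) (by
    intro p hp
    obtain ⟨a, ha, rfl⟩ := Multiset.mem_map.1 hp
    exact mem_LP a (h a ha))
  rw [Multiset.map_map, Multiset.map_map, zero_add] at h1
  have h2 : (((M.map (Prod.fst ∘ fun a => ((a + 4000000).toNat, wt a))).sum : ℕ) : ℤ) = M.sum + 20000000 := by
    have h3 : ∀ M : Multiset ℤ, (∀ x ∈ M, x ∈ LN) →
        (((M.map (Prod.fst ∘ fun a => ((a + 4000000).toNat, wt a))).sum : ℕ) : ℤ) = M.sum + 4000000 * M.card := by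
      intro M
      induction M using Multiset.induction_on with
      | empty => intro _; simp
      | cons a M ih =>
        intro h
        rw [Multiset.map_cons, Multiset.sum_cons, Multiset.sum_cons, Multiset.card_cons, Nat.cast_add,
          ih fun x hx => h x (Multiset.mem_cons_of_mem hx)]
        have h4 := nonneg_LN a (h a (Multiset.mem_cons_self a M))
        simp only [Function.comp]
        rw [Int.toNat_of_nonneg h4]
        push_cast
        ring
    rw [h3 M h, hM]
    norm_num
  obtain ⟨h5, h6⟩ := mem_LY _ hx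
  have h7 : 1 + (M.map (Prod.fst ∘ fun a => ((a + 4000000).toNat, wt a))).sum = (1 + M.sum + 20000000).toNat := by
    have h8 := Int.toNat_of_nonneg h6
    have h9 : (((1 + (M.map (Prod.fst ∘ fun a => ((a + 4000000).toNat, wt a))).sum : ℕ)) : ℤ) =
        (((1 + M.sum + 20000000).toNat : ℕ) : ℤ) := by
      rw [h8, Nat.cast_add, h2]
      push_cast
      ring
    exact_mod_cast h9
  rw [h7, tst, hit_LY _ h5, cond_false, Bool.or_eq_true, Bool.and_eq_true] at h1
  obtain ⟨h8, h9⟩ := h1.resolve_left (by
    intro h
    have h1 := List.all_eq_true.1 h _ h5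
    simp at h1)
  have h10 := Nat.eq_of_beq_eq_true h8
  refine ⟨?_, Nat.le_of_ble_eq_true h9⟩
  have h11 := Int.toNat_of_nonneg h6
  rw [h10] at h11
  push_cast at h11
  linarith

/-- the number of elements -/
def N9 : ℕ := 22594320403200

def fN (a : ℕ) : Bool :=
  bif Nat.ble a 6642 then true else
    ((!(Nat.beq (a % 73) 1)) || decide ((a : ℤ) ∈ LN)) && ((!(Nat.beq (a % 73) 72)) || decide (-(a : ℤ) ∈ LN)) &&
    ((!(Nat.beq (a % 73) 6)) || decide ((a : ℤ) ∈ LX)) && ((!(Nat.beq (a % 73) 67)) || decide (-(a : ℤ) ∈ LX))

open Cfsg.Agent.H653.Sieve in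
theorem check2 : allDiv N9 fN [(3, 12), (2, 8), (5, 2), (7, 1), (13, 1), (73, 1)] 1 = true := by decide +kernel

end Cfsg.Agent.H227.Pw
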