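import Cfsg.Agent.Cit.HexTorus
import Cfsg.Agent.Cit.HexBruhat
import Cfsg.Agent.Cit.HexG2

/-!
# `G₂(q)`, `q` odd: the torus acts on the unipotent elements with orbits of length at least `q - 1` (helper227)
-/

set_option autoImplicit false

namespace Cfsg.Agent.H227.Pw

open Cfsg.Agent.SplitTwo Cfsg.Agent.TitsThree.RankTwoZ Cfsg.Agent.Lib.SL2Mat Cfsg.Agent.Cit.HexBase
  Cfsg.Agent.Cit.HexBase.HexGrp

universe u

variable {E : Type*} [Field E] {L : Type u} [Group L] (c : HexGrp (RingEquiv.refl E) L)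

/-- the characters of the torus -/
def ml (k : Fin 6) (c1 c6 : E) : E :=
  match k with
  | 0 => c1
  | 1 => c6 * c1 ^ 3
  | 2 => c6 * c1 ^ 2
  | 3 => c6 ^ 2 * c1 ^ 3
  | 4 => c6 * c1
  | 5 => c6

theorem conj_eq_of_comm {r x v : L} {k : ZMod (2 * 6)} {s : Finset (ZMod (2 * 6))} (h : Sep s {k})
    (hr : Maps c.X r id) (hx : x ∈ c.X k) (hv : v ∈ Sg c.X s) (e : r * (x * v) * r⁻¹ = x * v) :
    r * x * r⁻¹ = x ∧ r * v * r⁻¹ = v := by
  have h1 : r * x * r⁻¹ ∈ c.X k := maps_mem hr hx rfl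
  have h2 : r * v * r⁻¹ ∈ Sg c.X s := conj_Sg hr (fun j hj => hj) hv
  exact c.peel h h1 h2 hx hv (by rw [← e]; group)

/-- a unipotent element commutes only with torus elements in the kernel of a root -/
theorem exists_ml {u : L} (hu : u ∈ Sg c.X {1, 2, 3, 4, 5, 6}) (h1 : u ≠ 1) :
    ∃ k : Fin 6, ∀ r c1 c6, c.Act r c1 c6 → r * u * r⁻¹ = u → ml k c1 c6 = 1 := by
  obtain ⟨y1, hy1, v1, hv1, rfl⟩ := c.exists_mul (k := 1) (s := {2, 3, 4, 5, 6}) (by decide +kernel)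
    (Sg_mono (by decide +kernel) hu)
  obtain ⟨y2, hy2, v2, hv2, rfl⟩ := c.exists_mul (k := 2) (s := {3, 4, 5, 6}) (by decide +kernel)
    (Sg_mono (by decide +kernel) hv1)
  obtain ⟨y3, hy3, v3, hv3, rfl⟩ := c.exists_mul (k := 3) (s := {4, 5, 6}) (by decide +kernel)
    (Sg_mono (by decide +kernel) hv2)
  obtain ⟨y4, hy4, v4, hv4, rfl⟩ := c.exists_mul (k := 4) (s := {5, 6}) (by decide +kernel)
    (Sg_mono (by decide +kernel) hv3)
  obtain ⟨y5, hy5, v5, hv5, rfl⟩ := c.exists_mul (k := 5) (s := {6}) (by decide +kernel)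
    (Sg_mono (by decide +kernel) hv4)
  have key : ∀ r, Maps c.X r id → r * (y1 * (y2 * (y3 * (y4 * (y5 * v5))))) * r⁻¹ =
      (y1 * (y2 * (y3 * (y4 * (y5 * v5))))) → r * y1 * r⁻¹ = y1 ∧ r * y2 * r⁻¹ = y2 ∧ r * y3 * r⁻¹ = y3 ∧
        r * y4 * r⁻¹ = y4 ∧ r * y5 * r⁻¹ = y5 ∧ r * v5 * r⁻¹ = v5 := by
    intro r hr e
    obtain ⟨e1, f1⟩ := conj_eq_of_comm c (s := {2, 3, 4, 5, 6}) (by decide +kernel) hr hy1 hv1 e
    obtain ⟨e2, f2⟩ := conj_eq_of_comm c (s := {3, 4, 5, 6}) (by decide +kernel) hr hy2 hv2 f1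
    obtain ⟨e3, f3⟩ := conj_eq_of_comm c (s := {4, 5, 6}) (by decide +kernel) hr hy3 hv3 f2
    obtain ⟨e4, f4⟩ := conj_eq_of_comm c (s := {5, 6}) (by decide +kernel) hr hy4 hv4 f3
    obtain ⟨e5, f5⟩ := conj_eq_of_comm c (s := {6}) (by decide +kernel) hr hy5 hv5 f4
    exact ⟨e1, e2, e3, e4, e5, f5⟩
  have hv6 : v5 ∈ c.X 6 := (Sg_le (s := {6}) (H := c.X 6) (by
    intro k hk
    rw [Finset.mem_singleton.1 hk])) hv5
  obtain ⟨a1, rfl⟩ := (c.par.mem1 _).1 hy1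
  obtain ⟨a2, h2, rfl⟩ := (c.par.mem2 _).1 hy2
  obtain ⟨a3, rfl⟩ := (c.par.mem3 _).1 hy3
  obtain ⟨a4, h4, rfl⟩ := (c.par.mem4 _).1 hy4
  obtain ⟨a5, rfl⟩ := (c.par.mem5 _).1 hy5
  obtain ⟨a6, h6, rfl⟩ := (c.par.mem6 _).1 hv6
  have canc : ∀ {m a : E}, a ≠ 0 → m * a = a → m = 1 := fun {m a} ha h => mul_right_cancel₀ ha (h.trans (one_mul a).symm)
  by_cases z1 : a1 = 0
  · by_cases z2 : a2 = 0
    · by_cases z3 : a3 = 0
      · by_cases z4 : a4 = 0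
        · by_cases z5 : a5 = 0
          · by_cases z6 : a6 = 0
            · exfalso
              apply h1
              subst z1 z2 z3 z4 z5 z6
              rw [c.x1_zero, c.x2_zero, c.x3_zero, c.x4_zero, c.x5_zero, c.x6_zero]
              simp
            · refine ⟨5, fun r c1 c6 hr e => ?_⟩
              obtain ⟨-, -, -, -, -, e6⟩ := key r hr.maps e
              rw [hr.a6 a6 h6] at e6
              exact canc z6 (c.x6_inj (mul_fix hr.fix h6) h6 e6)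
          · refine ⟨4, fun r c1 c6 hr e => ?_⟩
            obtain ⟨-, -, -, -, e5, -⟩ := key r hr.maps e
            rw [hr.a5 a5] at e5
            exact canc z5 (c.x5_inj e5)
        · refine ⟨3, fun r c1 c6 hr e => ?_⟩
          obtain ⟨-, -, -, e4, -, -⟩ := key r hr.maps e
          rw [hr.a4 a4 h4] at e4
          have := canc z4 (c.x4_inj rfl rfl e4)
          rwa [nrm_of_fix rfl] at this
      · refine ⟨2, fun r c1 c6 hr e => ?_⟩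
        obtain ⟨-, -, e3, -, -, -⟩ := key r hr.maps e
        rw [hr.a3 a3] at e3
        have := canc z3 (c.x3_inj e3)
        change c6 * c1 ^ 2 = 1
        rw [pow_two]
        exact this
    · refine ⟨1, fun r c1 c6 hr e => ?_⟩
      obtain ⟨-, e2, -, -, -, -⟩ := key r hr.maps e
      rw [hr.a2 a2 h2] at e2
      have := canc z2 (c.x2_inj rfl rfl e2)
      rwa [nrm_of_fix rfl] at this
  · refine ⟨0, fun r c1 c6 hr e => ?_⟩
    obtain ⟨e1, -⟩ := key r hr.maps e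
    rw [hr.a1 a1] at e1
    exact canc z1 (c.x1_inj e1)

/-- the torus elements -/
def IsT (g : L) : Prop := ∃ (s : E) (hs : s ≠ 0) (t : ↥(fx (RingEquiv.refl E))) (ht : t ≠ 0),
  g = c.pb (dg s hs) * c.pa (dg t ht)

theorem exists_act {c1 c6 : E} (h1 : c1 ≠ 0) (h6 : c6 ≠ 0) : ∃ g, IsT c g ∧ c.Act g c1 c6 := by
  have hs : c6 * c1 ^ 2 ≠ 0 := mul_ne_zero h6 (pow_ne_zero 2 h1)
  have ht : (⟨c6 ^ 2 * c1 ^ 3, rfl⟩ : ↥(fx (RingEquiv.refl E))) ≠ 0 := fun h =>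
    mul_ne_zero (pow_ne_zero 2 h6) (pow_ne_zero 3 h1) (congrArg Subtype.val h)
  refine ⟨_, ⟨c6 * c1 ^ 2, hs, ⟨c6 ^ 2 * c1 ^ 3, rfl⟩, ht, rfl⟩, ?_⟩
  refine ((c.act_b _ hs).mul (c.act_a _ ht)).congr rfl ?_ ?_
  · change (c6 * c1 ^ 2) ^ 2 * (c6 ^ 2 * c1 ^ 3)⁻¹ = c1
    field_simp
  · rw [nrm_of_fix rfl]
    change ((c6 * c1 ^ 2) ^ 3)⁻¹ * (c6 ^ 2 * c1 ^ 3) ^ 2 = c6
    field_simp

/-- **The orbits of the torus.** -/
theorem exists_tau {u : L} (hu : u ∈ Sg c.X {1, 2, 3, 4, 5, 6}) (h1 : u ≠ 1) :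
    ∃ τ : Eˣ → L, (∀ d, IsT c (τ d)) ∧ ∀ d d', τ d * u * (τ d)⁻¹ = τ d' * u * (τ d')⁻¹ → d = d' := by
  obtain ⟨k, hk⟩ := exists_ml c hu h1
  obtain ⟨f1, f6, hf⟩ : ∃ f1 f6 : Eˣ →* Eˣ, ∀ d : Eˣ, ml k ((f1 d : Eˣ) : E) ((f6 d : Eˣ) : E) = d := by
    fin_cases k
    · exact ⟨MonoidHom.id _, 1, fun d => rfl⟩
    · exact ⟨1, MonoidHom.id _, fun d => by simp [ml]⟩
    · exact ⟨1, MonoidHom.id _, fun d => by simp [ml]⟩
    · refine ⟨(MonoidHom.id _)⁻¹, powMonoidHom 2, fun d => ?_⟩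
      have hd : (d : E) ≠ 0 := d.ne_zero
      simp only [ml, MonoidHom.inv_apply, MonoidHom.id_apply, powMonoidHom_apply, Units.val_inv_eq_inv_val,
        Units.val_pow_eq_pow_val]
      field_simp
    · exact ⟨1, MonoidHom.id _, fun d => by simp [ml]⟩
    · exact ⟨1, MonoidHom.id _, fun d => by simp [ml]⟩
  have hex : ∀ d : Eˣ, ∃ g, IsT c g ∧ c.Act g ((f1 d : Eˣ) : E) ((f6 d : Eˣ) : E) := fun d =>
    exists_act c (Units.ne_zero _) (Units.ne_zero _)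
  choose τ hτ hτ' using hex
  refine ⟨τ, hτ, fun d d' e => ?_⟩
  have h2 := hk ((τ d')⁻¹ * τ d) _ _ ((hτ' d').inv.mul (hτ' d)) (by
    calc (τ d')⁻¹ * τ d * u * ((τ d')⁻¹ * τ d)⁻¹ = (τ d')⁻¹ * (τ d * u * (τ d)⁻¹) * τ d' := by group
      _ = u := by rw [e]; group)
  have h3 : ml k (((f1 (d'⁻¹ * d) : Eˣ) : E)) (((f6 (d'⁻¹ * d) : Eˣ) : E)) = 1 := by
    rw [map_mul, map_mul, map_inv, map_inv]
    push_cast
    exact h2
  rw [hf] at h3
  have h4 : d'⁻¹ * d = 1 := Units.ext h3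
  exact (inv_mul_eq_one.1 h4).symm

end Cfsg.Agent.H227.Pw
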