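import Cfsg.Agent.S1027
import Cfsg.Agent.S1035
import Cfsg.Agent.S1036
import Cfsg.Agent.S1038
import Cfsg.Agent.S1044
import Cfsg.Agent.S1045
import Cfsg.Agent.S2154
import Cfsg.Agent.H227.Pw.GNineTor

/-!
# `G₂(9)`: the centralizers of the elements of order 3 have order at most `42515280` (helper227)
-/

set_option autoImplicit false

namespace Cfsg.Agent.H227.Pw

open Cfsg Cfsg.Lie Subgroup
open Cfsg.Agent.ChevalleyStructure.Elts Cfsg.Agent.ChevalleyStructure.NConj Cfsg.Agent.Hexagon.G2Side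
open Cfsg.Agent.Hexagon.G2Pos Cfsg.Agent.Hexagon.G2Rel
open Cfsg.Agent.TitsThree.RankTwoZ Cfsg.Agent.Cit.HexBase Cfsg.Agent.Cit.HexG2

universe u

section Abs

variable {Y : Type*} [Group Y]

/-- the order of `B ∪ B n B` -/
theorem card_le_of_dc [Finite Y] {B Q X H P : Subgroup Y} {n : Y} (hBQ : ∀ b ∈ B, ∃ x ∈ X, ∃ v ∈ Q, ∃ h ∈ H, b = x * v * h)
    (hQ : ∀ v ∈ Q, n⁻¹ * v * n ∈ B) (hH : ∀ h ∈ H, n⁻¹ * h * n ∈ B)
    (hP : ∀ g ∈ P, g ∈ B ∨ g ∈ DoubleCoset.doubleCoset n (B : Set Y) B) :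
    Nat.card P ≤ (1 + Nat.card X) * Nat.card B := by
  classical
  have hdc : ∀ g ∈ DoubleCoset.doubleCoset n (B : Set Y) B, ∃ x : X, ∃ b : B, g = x * n * b := by
    intro g hg
    obtain ⟨b, hb, b', hb', rfl⟩ := DoubleCoset.mem_doubleCoset.1 hg
    obtain ⟨x, hx, v, hv, h, hh, rfl⟩ := hBQ b hb
    refine ⟨⟨x, hx⟩, ⟨n⁻¹ * v * n * (n⁻¹ * h * n) * b', mul_mem (mul_mem (hQ v hv) (hH h hh)) hb'⟩, ?_⟩
    simp only
    group
  have hex : ∀ g : P, ∃ y : B ⊕ (X × B), (g : Y) = Sum.elim (fun b : B => (b : Y)) (fun y : X × B => y.1 * n * y.2) y := by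
    rintro ⟨g, hg⟩
    rcases hP g hg with h | h
    · exact ⟨Sum.inl ⟨g, h⟩, rfl⟩
    · obtain ⟨x, b, e⟩ := hdc g h
      exact ⟨Sum.inr (x, b), e⟩
  choose f hf using hex
  have hinj : Function.Injective f := fun a b h => Subtype.ext (by rw [hf a, hf b, h])
  have h1 := Nat.card_le_card_of_injective f hinj
  rw [Nat.card_sum, Nat.card_prod] at h1
  calc _ ≤ _ := h1
    _ = _ := by ring

theorem mem_sup {U H : Subgroup Y} (h : H ≤ normalizer (U : Set Y)) {g : Y} (hg : g ∈ U ⊔ H) :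
    ∃ u ∈ U, ∃ x ∈ H, g = u * x := by
  have h1 : g ∈ ((U ⊔ H : Subgroup Y) : Set Y) := hg
  rw [Subgroup.coe_mul_of_right_le_normalizer_left U H h] at h1
  obtain ⟨u, hu, x, hx, e⟩ := Set.mem_mul.1 h1
  exact ⟨u, hu, x, hx, e.symm⟩

theorem mem_sup' {U H : Subgroup Y} (h : H ≤ normalizer (U : Set Y)) {g : Y} (hg : g ∈ U ⊔ H) :
    ∃ x ∈ H, ∃ u ∈ U, g = x * u := by
  obtain ⟨u, hu, x, hx, e⟩ := mem_sup h (inv_mem hg)
  exact ⟨x⁻¹, inv_mem hx, u⁻¹, inv_mem hu, by rw [← mul_inv_rev, ← e, inv_inv]⟩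

theorem card_sup_le [Finite Y] {U H : Subgroup Y} (h : H ≤ normalizer (U : Set Y)) :
    Nat.card ↥(U ⊔ H) ≤ Nat.card U * Nat.card H := by
  have hmem : ∀ g : ↥(U ⊔ H), ∃ y : U × H, (g : Y) = y.1 * y.2 := by
    rintro ⟨g, hg⟩
    obtain ⟨u, hu, x, hx, e⟩ := mem_sup h hg
    exact ⟨(⟨u, hu⟩, ⟨x, hx⟩), e⟩
  choose f hf using hmem
  have h1 := Nat.card_le_card_of_injective f fun a b h => Subtype.ext (by rw [hf a, hf b, h])
  rwa [Nat.card_prod] at h1

end Abs

section GTwo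

variable {F : Type u} [Field F]

theorem tab_pos : ∀ r < 12, chevG2.IsPosRoot r → ∃ k : ZMod (2 * 6), k ∈ ({1, 2, 3, 4, 5, 6} : Finset (ZMod (2 * 6))) ∧
    tab k = r := by decide +kernel

/-- the unipotent group in coordinates -/
theorem pos_Sg {g : ↥(chevG2.group F)} (hg : (g : GL chevG2.Idx F) ∈ chevG2.posUnipotent F) :
    g ∈ Sg (X F) {1, 2, 3, 4, 5, 6} := by
  have h : chevG2.posUnipotent F ≤ (Sg (X F) {1, 2, 3, 4, 5, 6}).map (chevG2.group F).subtype := by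
    rw [ChevalleyDatum.posUnipotent, Subgroup.closure_le]
    rintro y ⟨r, t, hr, hy⟩
    obtain ⟨k, hk, rfl⟩ := tab_pos r hr.1 hr
    refine ⟨xs (tab k) t, X_le_Sg hk (mem_X.2 ⟨t, rfl⟩), ?_⟩
    rw [Subgroup.coe_subtype, coe_xs]
    apply Units.ext
    rw [coe_xG, hy]
  obtain ⟨g', hg', e⟩ := h hg
  have : g' = g := Subtype.ext e
  rwa [← this]

variable [Fintype F]

theorem card_rootSubgroup (r : ℕ) : Nat.card ↥(chevG2.rootSubgroup F r) ≤ Fintype.card F := by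
  classical
  rw [← Nat.card_eq_fintype_card]
  refine Nat.card_le_card_of_surjective (fun t : F => (⟨xG hG2 r t, xG_mem_rootSubgroup hG2 r t⟩ :
    ↥(chevG2.rootSubgroup F r))) ?_
  rintro ⟨g, hg⟩
  obtain ⟨t, rfl⟩ := (mem_rootSubgroup_iff hG2 r g).1 hg
  exact ⟨t, rfl⟩

/-- the order of a proper parabolic subgroup -/
theorem card_par {J : Set ℕ} {i : ℕ} (hi : i < 2) (hiJ : i ∉ J) :
    Nat.card ↥(chevG2.parabolicSubgroup F J) ≤
      (1 + Fintype.card F) * (Fintype.card F ^ 6 * (Fintype.card F - 1) ^ 2) := by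
  classical
  obtain ⟨j, hj, hji⟩ : ∃ j, j < 2 ∧ ∀ k, k < 2 → k ≠ i → k = j := by
    interval_cases i
    · exact ⟨1, by norm_num, by omega⟩
    · exact ⟨0, by norm_num, by omega⟩
  obtain ⟨n, hn', hn⟩ : ∃ n : GL chevG2.Idx F, n = nG hG2 (chevG2.simple j) 1 ∧
      (n : Matrix chevG2.Idx chevG2.Idx F) = chevG2.nMat F (chevG2.simple j) 1 := ⟨_, rfl, coe_nG hG2 _ _⟩
  obtain ⟨P, hP⟩ := S1044.result (F := F) chevG2 hG2 j hj n hn
  have hle : chevG2.parabolicSubgroup F J ≤ P := by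
    have hB : chevG2.borelSubgroup F ≤ P := by
      intro b hb
      have : b ∈ (P : Set (GL chevG2.Idx F)) := by
        rw [hP]
        exact Or.inl hb
      exact this
    rw [ChevalleyDatum.parabolicSubgroup, sup_le_iff, Subgroup.closure_le]
    refine ⟨hB, ?_⟩
    rintro y ⟨k, hk, hk2, hy⟩
    have hkj : k = j := hji k hk2 (by rintro rfl; exact hiJ hk)
    subst hkj
    have : y = n := Units.ext (hy.trans hn.symm)
    subst this
    have : y ∈ (P : Set (GL chevG2.Idx F)) := by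
      rw [hP]
      right
      exact DoubleCoset.mem_doubleCoset.2 ⟨1, one_mem _, 1, one_mem _, by simp⟩
    exact this
  obtain ⟨hKX, hU'⟩ := S1045.result (F := F) chevG2 hG2 j hj
  have hUH := (S1036.result (F := F) chevG2 hG2).1
  have h1 := Subgroup.card_le_of_le hle
  refine h1.trans ?_
  have h2 := card_le_of_dc (B := chevG2.borelSubgroup F) (X := chevG2.rootSubgroup F (chevG2.simple j))
    (H := chevG2.diagonalSubgroup F) (P := P) (n := n) (Q := Subgroup.closure {g : GL chevG2.Idx F | ∃ (s : ℕ) (t : F),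
      chevG2.IsPosRoot s ∧ s ≠ chevG2.simple j ∧ (g : Matrix chevG2.Idx chevG2.Idx F) = chevG2.x F s t}) ?_ ?_ ?_ ?_
  · refine h2.trans ?_
    refine Nat.mul_le_mul (Nat.add_le_add_left (card_rootSubgroup _) 1) ?_
    · refine (card_sup_le hUH).trans ?_
      have h3 := S1027.result (F := F) chevG2 hG2
      have h4 := S1035.result (F := F) (q := Fintype.card F) rfl (chevG2, 1) (by simp)
      rw [h3]
      simp only [one_mul] at h4
      rw [h4]
      exact le_of_eq rfl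
  · intro b hb
    obtain ⟨u, hu, h, hh, rfl⟩ := mem_sup hUH hb
    rw [← hU'] at hu
    obtain ⟨x, hx, v, hv, rfl⟩ := mem_sup' (le_trans le_sup_left hKX) hu
    exact ⟨x, hx, v, hv, h, hh, rfl⟩
  · intro v hv
    have h3 : n⁻¹ ∈ normalizer (Subgroup.closure {g : GL chevG2.Idx F | ∃ (s : ℕ) (t : F),
        chevG2.IsPosRoot s ∧ s ≠ chevG2.simple j ∧ (g : Matrix chevG2.Idx chevG2.Idx F) = chevG2.x F s t} :
        Set (GL chevG2.Idx F)) := by
      refine hKX (inv_mem ?_)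
      rw [hn', nG_def]
      exact mul_mem (Subgroup.mem_sup_left (xG_mem_rootSubgroup hG2 _ _))
        (mul_mem (Subgroup.mem_sup_right (xG_mem_rootSubgroup hG2 _ _))
        (Subgroup.mem_sup_left (xG_mem_rootSubgroup hG2 _ _)))
    have h4 := (Subgroup.mem_normalizer_iff.1 h3 v).1 hv
    rw [inv_inv] at h4
    refine Subgroup.mem_sup_left ?_
    rw [← hU']
    exact Subgroup.mem_sup_left h4
  · intro h hh
    have hnN : n ∈ chevG2.monomialSubgroup F := by
      apply Subgroup.mem_sup_right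
      exact Subgroup.subset_closure ⟨_, by interval_cases j <;> decide, hn⟩
    have hhN : h ∈ chevG2.monomialSubgroup F := Subgroup.mem_sup_left hh
    have := (S1038.result (F := F) chevG2 hG2).conj_mem ⟨h, hhN⟩ (Subgroup.mem_subgroupOf.2 hh) ⟨n, hnN⟩⁻¹
    have h5 := Subgroup.mem_subgroupOf.1 this
    rw [inv_inv] at h5
    exact Subgroup.mem_sup_right h5
  · intro g hg
    have : g ∈ (P : Set (GL chevG2.Idx F)) := hg
    rw [hP] at this
    exact this

end GTwo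

end Cfsg.Agent.H227.Pw
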