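import Cfsg.Agent.H65.Ore.Sieve
import Cfsg.Agent.H227.Pw.GNineNum

/-!
# S2465, `G₂(9)`: every element with a centralizer of order at most `42515280` is a product of two elements of
order 73 (helper227)
-/

set_option autoImplicit false

namespace Cfsg.Agent.H227.Pw

open Cfsg Cfsg.Agent.Characters Subgroup Cfsg.Agent.H65.Ore

universe u

variable {G : Type u} [Group G] [Finite G]

theorem chk73 : chkSC N9 73 6 12 885 = true := by decide +kernel

theorem facN : H653.Sieve.facProd [(3, 12), (2, 8), (5, 2), (7, 1), (13, 1), (73, 1)] = N9 := by decide +kernel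

theorem deg_facts [Fintype (IrrCharacter G)] (hN : Nat.card G = N9) {χ : IrrCharacter G} (hχ : (χ : G → ℂ) ≠ 1) :
    fN (charDegree (χ : G → ℂ)) = true := by
  classical
  have h1 : charDegree (χ : G → ℂ) ∣ Nat.card G := Blocks.Knorr.charDegree_dvd χ.2
  rw [hN, ← facN] at h1
  have h2 := H686.CharKit.sum_deg_sq (G := G)
  have h3 : ∑ θ ∈ ({one1 G, χ} : Finset (IrrCharacter G)), charDegree (θ : G → ℂ) ^ 2 ≤
      ∑ θ : IrrCharacter G, charDegree (θ : G → ℂ) ^ 2 :=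
    Finset.sum_le_sum_of_subset (Finset.subset_univ _)
  have hne : one1 G ≠ χ := by
    rintro rfl
    exact hχ rfl
  rw [Finset.sum_pair hne, h2, hN] at h3
  have h4 : charDegree (one1 G : G → ℂ) = 1 := by
    have h5 := cast_deg (one1 G)
    rw [one1_apply] at h5
    exact_mod_cast h5.symm
  rw [h4] at h3
  have h5 := H653.Sieve.allDiv_spec (by
    intro pa hpa
    simp only [List.mem_cons, List.not_mem_nil, or_false] at hpa
    rcases hpa with rfl | rfl | rfl | rfl | rfl | rfl <;> norm_num) check2 _ h1 (by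
      rw [one_mul]
      nlinarith)
  rwa [one_mul] at h5

/-- the consequences of the check -/
theorem fN_ne {a : ℕ} (h : fN a = true) (h0 : 6643 ≤ a) {ε : ℤ} (hε : ε = 1 ∨ ε = -1) {m : ℤ}
    (hm : (a : ℤ) = ε + 73 * m) : ε * a ∈ LN := by
  have hb : Nat.ble a 6642 = false := by
    rw [Bool.eq_false_iff]
    intro h1
    have := Nat.le_of_ble_eq_true h1
    omega
  rw [fN, hb] at h
  simp only [cond_false, Bool.and_eq_true, Bool.or_eq_true, Bool.not_eq_true', decide_eq_true_eq] at h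
  obtain ⟨⟨⟨h1, h2⟩, -⟩, -⟩ := h
  rcases hε with rfl | rfl
  · rw [one_mul]
    refine h1.resolve_left fun h3 => ?_
    have h4 : a % 73 = 1 := by omega
    rw [h4] at h3
    exact absurd h3 (by decide)
  · rw [neg_one_mul]
    refine h2.resolve_left fun h3 => ?_
    have h4 : a % 73 = 72 := by omega
    rw [h4] at h3
    exact absurd h3 (by decide)

theorem fN_x {a : ℕ} (h : fN a = true) (h0 : 6643 ≤ a) {ε : ℤ} (hε : ε = 1 ∨ ε = -1) {m : ℤ}
    (hm : (a : ℤ) = ε * 6 + 73 * m) : ε * a ∈ LX := by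
  have hb : Nat.ble a 6642 = false := by
    rw [Bool.eq_false_iff]
    intro h1
    have := Nat.le_of_ble_eq_true h1
    omega
  rw [fN, hb] at h
  simp only [cond_false, Bool.and_eq_true, Bool.or_eq_true, Bool.not_eq_true', decide_eq_true_eq] at h
  obtain ⟨⟨-, h1⟩, h2⟩ := h
  rcases hε with rfl | rfl
  · rw [one_mul]
    refine h1.resolve_left fun h3 => ?_
    have h4 : a % 73 = 6 := by omega
    rw [h4] at h3
    exact absurd h3 (by decide)
  · rw [neg_one_mul]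
    refine h2.resolve_left fun h3 => ?_
    have h4 : a % 73 = 67 := by omega
    rw [h4] at h3
    exact absurd h3 (by decide)

/-- the weight bounds the inverse square -/
theorem inv_sq_le {a : ℤ} (ha : a ≠ 0) : 1 / (a : ℝ) ^ 2 ≤ (wt a : ℝ) / 10 ^ 20 := by
  have h1 : 0 < a.natAbs * a.natAbs := by
    have := Int.natAbs_pos.2 ha
    positivity
  have h2 : 10 ^ 20 < a.natAbs * a.natAbs * wt a := by
    unfold wt
    exact Nat.lt_mul_div_succ _ h1
  have h3 : ((10 ^ 20 : ℕ) : ℝ) < ((a.natAbs * a.natAbs * wt a : ℕ) : ℝ) := by exact_mod_cast h2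
  have h4 : ((a.natAbs * a.natAbs : ℕ) : ℝ) = (a : ℝ) ^ 2 := by
    have h5 : ((a.natAbs * a.natAbs : ℕ) : ℤ) = a ^ 2 := by
      rw [Nat.cast_mul, ← pow_two, Int.natAbs_sq]
    rw [← Int.cast_natCast (R := ℝ), h5, Int.cast_pow]
  rw [Nat.cast_mul, h4] at h3
  have h5 : (0 : ℝ) < (a : ℝ) ^ 2 := by
    rw [← h4]
    exact_mod_cast h1
  rw [div_le_div_iff₀ h5 (by positivity), one_mul]
  push_cast at h3
  linarith [mul_comm ((a : ℝ) ^ 2) (wt a : ℝ)]

/-- **T1 for `G₂(9)`.** -/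
theorem prd73 [IsSimpleGroup G] (hG : ¬ IsMulCommutative G) (hN : Nat.card G = N9) {x : G} (hx : orderOf x = 73)
    (hc : Nat.card (centralizer ({x} : Set G)) = 73)
    (hm : ∀ χ : IrrCharacter G, (χ : G → ℂ) ≠ 1 → 6643 ≤ charDegree (χ : G → ℂ)) :
    ∃ z : G, orderOf z = 73 ∧ ∀ g : G, Nat.card (centralizer ({g} : Set G)) ≤ 42515280 → Prd z z g := by
  classical
  have hp : Nat.Prime 73 := by norm_num
  have : Fact (Nat.Prime 73) := ⟨hp⟩
  have : Finite (IrrCharacter G) := Core.finite_irr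
  have := Fintype.ofFinite (IrrCharacter G)
  obtain ⟨hp2, ht, hS, he0, P, hP, hC, hrel, hconj⟩ := setup hG hp hN hx hc 6 12 885 chk73
  obtain ⟨z, hz, hz1, hxz⟩ := hconj x hx
  have hzo : orderOf z = 73 := by
    obtain ⟨g, rfl⟩ := isConj_iff.1 hxz
    rw [← hx]
    have := (MulAut.conj g).orderOf_eq x
    rwa [MulAut.conj_apply] at this
  refine ⟨z, hzo, ?_⟩
  obtain ⟨NE, X, ε, d, S, hdis, hNE, hX, hε, hd, ⟨χ₁, hχ₁, hχ₁', hε₁⟩, hv, hvX, hXd, hsum, hzero⟩ :=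
    SmallSimple.TheoremBCor.theoremB_selfCent 73 hp2 P hP hC 6 12 hrel ht
  obtain rfl : χ₁ = one1 G := Subtype.ext hχ₁'
  have hone : ¬ 73 ∣ orderOf (1 : G) := by
    rw [orderOf_one]; exact fun h => absurd (Nat.dvd_one.1 h) (by norm_num)
  -- the signed degrees
  have hmem : ∀ χ ∈ NE.erase (one1 G), ε χ * (charDegree (χ : G → ℂ) : ℤ) ∈ LN := by
    intro χ hχ
    have hχ1 := Finset.mem_of_mem_erase hχ
    have hne := coe_ne_one (Finset.ne_of_mem_erase hχ)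
    obtain ⟨m, hm'⟩ := SmallSimple.TheoremBCor.degree_nonexc (P := (P : Subgroup G)) hP
      (Core.isIrr_isCharacter χ.2) (ε := ε χ) (fun y hy hy1 => hv χ hχ1 y hy hy1)
    rw [cast_deg] at hm'
    have h3 : ((charDegree (χ : G → ℂ) : ℕ) : ℤ) = ε χ + (73 : ℕ) * ((m : ℤ) - ε χ) := by exact_mod_cast hm'
    exact fN_ne (deg_facts hN hne) (hm χ hne) (hε χ hχ1) (m := (m : ℤ) - ε χ) (by exact_mod_cast h3)
  -- the degree of the exceptional characters
  have hXdeg : ∀ Θ ∈ X, d * (charDegree (Θ : G → ℂ) : ℤ) =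
      1 + ∑ χ ∈ NE.erase (one1 G), ε χ * (charDegree (χ : G → ℂ) : ℤ) := by
    intro Θ hΘ
    have h1 := hsum Θ hΘ 1 hone
    rw [← Finset.add_sum_erase _ _ hχ₁, hε₁, one1_apply, cast_deg] at h1
    simp only [cast_deg] at h1
    have h2 : (((1 + ∑ χ ∈ NE.erase (one1 G), ε χ * (charDegree (χ : G → ℂ) : ℤ) : ℤ)) : ℂ) =
        ((d * (charDegree (Θ : G → ℂ) : ℤ) : ℤ) : ℂ) := by
      push_cast
      rw [← h1]
      simp
    exact_mod_cast h2.symm
  obtain ⟨Θ₀, hΘ₀⟩ : X.Nonempty := by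
    rw [← Finset.card_pos, hX]
    norm_num
  have hXne : ∀ Θ ∈ X, (Θ : G → ℂ) ≠ 1 := by
    intro Θ hΘ h
    have : Θ = one1 G := Subtype.ext h
    rw [this] at hΘ
    exact (Finset.disjoint_left.1 hdis hχ₁) hΘ
  have hmemX : d * (charDegree (Θ₀ : G → ℂ) : ℤ) ∈ LX := by
    obtain ⟨hSc, hS1, hSv⟩ := hvX Θ₀ hΘ₀
    obtain ⟨m, hm'⟩ := SmallSimple.TheoremBCor.degree_exc (P := (P : Subgroup G)) hP
      (Core.isIrr_isCharacter Θ₀.2) (d := d) (S := S Θ₀) hS1 hSv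
    rw [cast_deg, hSc] at hm'
    have h3 : ((charDegree (Θ₀ : G → ℂ) : ℕ) : ℤ) = d * (6 : ℕ) + (73 : ℕ) * m := by exact_mod_cast hm'
    exact fN_x (deg_facts hN (hXne Θ₀ hΘ₀)) (hm Θ₀ (hXne Θ₀ hΘ₀)) hd (m := m) (by exact_mod_cast h3)
  -- the check
  set f : IrrCharacter G → ℤ := fun χ => ε χ * (charDegree (χ : G → ℂ) : ℤ) with hf
  have hsum1 : ((NE.erase (one1 G)).val.map f).sum = ∑ χ ∈ NE.erase (one1 G), f χ := rfl
  obtain ⟨hdeg, hwt'⟩ := check_spec ((NE.erase (one1 G)).val.map f) (by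
    rw [Multiset.card_map]
    change (NE.erase (one1 G)).card = 5
    rw [Finset.card_erase_of_mem hχ₁, hNE]) (by
    intro s hs
    obtain ⟨χ, hχ, rfl⟩ := Multiset.mem_map.1 hs
    exact hmem χ hχ) (by
    rw [hsum1, ← hXdeg Θ₀ hΘ₀]
    exact hmemX)
  rw [hsum1, ← hXdeg Θ₀ hΘ₀] at hdeg
  rw [Multiset.map_map] at hwt'
  have hsum2 : ((NE.erase (one1 G)).val.map (wt ∘ f)).sum = ∑ χ ∈ NE.erase (one1 G), wt (f χ) := rfl
  rw [hsum2] at hwt'
  have hdX : ∀ Θ ∈ X, charDegree (Θ : G → ℂ) = 582400 := by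
    intro Θ hΘ
    have h1 := (hXdeg Θ hΘ).trans (hXdeg Θ₀ hΘ₀).symm
    rw [hdeg] at h1
    rcases hd with rfl | rfl
    · rw [one_mul] at h1
      exact_mod_cast h1
    · exfalso
      rw [neg_one_mul] at h1
      omega
  -- the fourth moment
  have h4 := sum_four_pow hp2 P hP hC hrel ht hz hz1
  have henr : enr 73 6 = 90 := by decide +kernel
  rw [henr] at h4
  have hz0 : ∀ χ : IrrCharacter G, χ ∉ NE → χ ∉ X → (χ : G → ℂ) z = 0 := fun χ h1 h2 => (hzero χ h1 h2).1 z hz hz1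
  have hv1 : ∀ χ ∈ NE, ‖(χ : G → ℂ) z‖ = 1 := by
    intro χ hχ
    rw [hv χ hχ z hz hz1]
    rcases hε χ hχ with h | h <;> rw [h] <;> simp
  have hsplit : ∀ F : IrrCharacter G → ℝ, (∀ χ, χ ∉ NE → χ ∉ X → F χ = 0) →
      ∑ χ, F χ = F (one1 G) + ∑ χ ∈ NE.erase (one1 G), F χ + ∑ χ ∈ X, F χ := by
    intro F hF
    rw [Finset.add_sum_erase _ _ hχ₁, ← Finset.sum_union hdis]
    symm
    refine Finset.sum_subset (Finset.subset_univ _) fun χ _ hχ => ?_
    rw [Finset.mem_union, not_or] at hχ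
    exact hF χ hχ.1 hχ.2
  have hcard5 : (NE.erase (one1 G)).card = 5 := by
    rw [Finset.card_erase_of_mem hχ₁, hNE]
  have h4X : ∑ χ ∈ X, ‖(χ : G → ℂ) z‖ ^ 4 = 879 := by
    rw [hsplit (fun χ => ‖(χ : G → ℂ) z‖ ^ 4) (fun χ h1 h2 => by
      rw [hz0 χ h1 h2]
      simp), Finset.sum_congr rfl (fun χ hχ => by
        rw [hv1 χ (Finset.mem_of_mem_erase hχ), one_pow] :
        ∀ χ ∈ NE.erase (one1 G), ‖(χ : G → ℂ) z‖ ^ 4 = 1), Finset.sum_const, hcard5, one1_apply] at h4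
    simp only [norm_one, one_pow, nsmul_eq_mul] at h4
    push_cast at h4
    linarith
  intro g hg
  apply prd_of_weighted
  rw [hsplit (fun χ => (‖(χ : G → ℂ) z‖ * ‖(χ : G → ℂ) z‖ / ‖(χ : G → ℂ) 1‖) ^ 2) (fun χ h1 h2 => by
    rw [hz0 χ h1 h2]
    simp)]
  simp only [one1_apply, norm_one, mul_one, div_one, one_pow]
  have hA : ∑ χ ∈ NE.erase (one1 G), (‖(χ : G → ℂ) z‖ * ‖(χ : G → ℂ) z‖ / ‖(χ : G → ℂ) 1‖) ^ 2 ≤
      (1225200000000 : ℝ) / 10 ^ 20 := by
    have h5 : ∑ χ ∈ NE.erase (one1 G), (‖(χ : G → ℂ) z‖ * ‖(χ : G → ℂ) z‖ / ‖(χ : G → ℂ) 1‖) ^ 2 ≤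
        ∑ χ ∈ NE.erase (one1 G), (wt (f χ) : ℝ) / 10 ^ 20 := by
      refine Finset.sum_le_sum fun χ hχ => ?_
      have hχ1 := Finset.mem_of_mem_erase hχ
      have h6 : f χ ≠ 0 := by
        intro h7
        have h8 := hmem χ hχ
        change f χ ∈ LN at h8
        rw [h7] at h8
        exact absurd h8 (by decide)
      refine le_trans (le_of_eq ?_) (inv_sq_le h6)
      rw [hv1 χ hχ1, cast_deg, Complex.norm_natCast]
      have h7 : (f χ : ℝ) ^ 2 = (charDegree (χ : G → ℂ) : ℝ) ^ 2 := by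
        rw [hf]
        push_cast
        rw [mul_pow]
        rcases hε χ hχ1 with h | h <;> rw [h] <;> simp
      rw [h7, one_mul, div_pow, one_pow]
    refine h5.trans ?_
    rw [← Finset.sum_div]
    refine div_le_div_of_nonneg_right ?_ (by positivity)
    exact_mod_cast hwt'
  have hB : ∑ χ ∈ X, (‖(χ : G → ℂ) z‖ * ‖(χ : G → ℂ) z‖ / ‖(χ : G → ℂ) 1‖) ^ 2 = 879 / 582400 ^ 2 := by
    rw [← h4X, Finset.sum_div]
    refine Finset.sum_congr rfl fun χ hχ => ?_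
    rw [cast_deg, Complex.norm_natCast, hdX χ hχ]
    push_cast
    ring
  rw [hB]
  have hc1 : (1 : ℝ) ≤ (Nat.card (centralizer ({g} : Set G)) : ℝ) := by exact_mod_cast Nat.card_pos
  have hc2 : (Nat.card (centralizer ({g} : Set G)) : ℝ) ≤ 42515280 := by exact_mod_cast hg
  have hA0 : (0 : ℝ) ≤ ∑ χ ∈ NE.erase (one1 G), (‖(χ : G → ℂ) z‖ * ‖(χ : G → ℂ) z‖ / ‖(χ : G → ℂ) 1‖) ^ 2 :=
    Finset.sum_nonneg fun _ _ => by positivity
  calc _ ≤ ((1225200000000 : ℝ) / 10 ^ 20 + 879 / 582400 ^ 2) * (42515280 - 1) := by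
        apply mul_le_mul
        · linarith
        · linarith
        · linarith
        · positivity
    _ < 1 := by norm_num

end Cfsg.Agent.H227.Pw
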